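import Cfsg.Agent.Rf3.A
import Cfsg.Agent.FpC.B
import Cfsg.Agent.PGrp.MaxClass
import Cfsg.Agent.Invol.OddAut
import Cfsg.Agent.Solv.Coprime
import Cfsg.Agent.Solv.Fitting
import Cfsg.Agent.Solv.Hall
import Cfsg.Agent.Solv.Frattini

set_option autoImplicit false
set_option linter.unusedSectionVars false

namespace Cfsg.Agent.Ng8

open Subgroup
open scoped commutatorElement

variable {S : Type*} [Group S] [Finite S]

/-- no noncyclic abelian subgroup of order 8 -/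
def Good (K : Subgroup S) : Prop :=
  ¬ ∃ A : Subgroup S, A ≤ K ∧ IsMulCommutative A ∧ ¬ IsCyclic A ∧ Nat.card A = 8

theorem Good.mono {K L : Subgroup S} (h : Good K) (hle : L ≤ K) : Good L :=
  fun ⟨A, h1, h2⟩ => h ⟨A, h1.trans hle, h2⟩

theorem Good.sub {K : Subgroup S} (h : Good K) (C : Subgroup K) : Good C := by
  rintro ⟨A, -, h2, h3, h4⟩
  refine h ⟨A.map K.subtype, map_subtype_le A, inferInstance, fun hc => h3 ?_, ?_⟩
  · exact isCyclic_of_surjective _ (A.equivMapOfInjective _ K.subtype_injective).symm.surjective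
  · rw [card_map_of_injective K.subtype_injective, h4]

theorem inv_eq {A : Subgroup S} (hA : IsCyclic A) {z t : S} (hz : z ∈ A) (ht : t ∈ A)
    (z2 : z ^ 2 = 1) (t2 : t ^ 2 = 1) (z1 : z ≠ 1) (t1 : t ≠ 1) : z = t := by
  classical
  by_contra hne
  have := Fintype.ofFinite A
  have h1 := IsCyclic.card_pow_eq_one_le (α := A) (n := 2) two_pos
  have h2 : ({1, ⟨z, hz⟩, ⟨t, ht⟩} : Finset A) ⊆ Finset.univ.filter fun a : A => a ^ 2 = 1 := by
    intro a ha
    simp only [Finset.mem_insert, Finset.mem_singleton] at ha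
    rcases ha with rfl | rfl | rfl
    · simp
    · simpa [Subtype.ext_iff] using z2
    · simpa [Subtype.ext_iff] using t2
  have h3 := Finset.card_le_card h2
  rw [Finset.card_insert_of_notMem (by simp [Subtype.ext_iff, z1.symm, t1.symm]),
    Finset.card_pair (by simpa [Subtype.ext_iff] using hne)] at h3
  omega

theorem mem_zp2 {z a : S} (z2 : z ^ 2 = 1) (ha : a ∈ zpowers z) : a = 1 ∨ a = z := by
  obtain ⟨i, rfl⟩ := ha
  have h : z ^ (2 : ℤ) = 1 := by rw [zpow_two, ← pow_two, z2]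
  change z ^ i = 1 ∨ z ^ i = z
  rcases Int.even_or_odd' i with ⟨k, rfl | rfl⟩
  · left; rw [zpow_mul, h, one_zpow]
  · right; rw [zpow_add, zpow_mul, h, one_zpow, one_mul, zpow_one]

theorem ext8T (hS : IsPGroup 2 S) {z t : S} (z2 : z ^ 2 = 1) (t2 : t ^ 2 = 1) (z1 : z ≠ 1)
    (t1 : t ≠ 1) (hne : z ≠ t) (hz : z ∈ center S) (ht : t ∈ center S) (h4 : 4 < Nat.card S) :
    ¬ Good (⊤ : Subgroup S) := by
  intro hg
  have hV : zpowers z ⊔ zpowers t ≤ center S := sup_le (zpowers_le.2 hz) (zpowers_le.2 ht)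
  have hi : zpowers z ⊓ zpowers t = ⊥ := by
    rw [eq_bot_iff]
    rintro a ⟨h1, h2⟩
    rcases mem_zp2 z2 h1 with e | e
    · exact e
    · rcases mem_zp2 t2 h2 with e' | e'
      · exact e'
      · exact absurd (e.symm.trans e') hne
  have c4 : Nat.card (zpowers z ⊔ zpowers t : Subgroup S) = 2 ^ 2 := by
    have := Solv.card_sup_mul_card_inf (N := zpowers z) (H := zpowers t)
      (zpowers_le.2 (centralizer_le_normalizer _ fun a _ => mem_center_iff.1 ht a))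
    rwa [hi, card_bot, mul_one, Nat.card_zpowers, Nat.card_zpowers, orderOf_eq_prime z2 z1,
      orderOf_eq_prime t2 t1] at this
  obtain ⟨k, hk⟩ := hS.exists_card_eq
  have hk3 : 3 ≤ k := by
    by_contra! hlt
    have : 2 ^ k ≤ 2 ^ 2 := Nat.pow_le_pow_right two_pos (by omega)
    omega
  obtain ⟨A, hA, hVA⟩ := Sylow.exists_subgroup_card_pow_succ (p := 2) (n := 2)
    (hk ▸ pow_dvd_pow 2 hk3) c4
  have hi2 : ((zpowers z ⊔ zpowers t).subgroupOf A).index = 2 := by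
    have := Solv.card_mul_relIndex hVA
    rw [c4, hA] at this
    change (zpowers z ⊔ zpowers t).relIndex A = 2
    omega
  refine hg ⟨A, le_top, ⟨⟨fun a b => Subtype.ext ?_⟩⟩, fun hc => hne (inv_eq hc
    (hVA (mem_sup_left (mem_zpowers z))) (hVA (mem_sup_right (mem_zpowers t))) z2 t2 z1 t1), hA⟩
  change (a : S) * b = b * a
  by_cases ha : a ∈ (zpowers z ⊔ zpowers t).subgroupOf A
  · exact (mem_center_iff.1 (hV ha) b).symm
  by_cases hb : b ∈ (zpowers z ⊔ zpowers t).subgroupOf A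
  · exact mem_center_iff.1 (hV hb) a
  have : a⁻¹ * b ∈ (zpowers z ⊔ zpowers t).subgroupOf A := by
    rw [mul_mem_iff_of_index_two hi2, inv_mem_iff]; simp [ha, hb]
  have := mem_center_iff.1 (hV this) a
  change (a : S) * ((a : S)⁻¹ * b) = (a : S)⁻¹ * b * a at this
  calc (a : S) * b = a * ((a : S) * ((a : S)⁻¹ * b)) := by group
    _ = _ := by rw [this]; group

theorem ext8 {C : Subgroup S} (hC : IsPGroup 2 C) {z t : S} (hz : z ∈ C) (ht : t ∈ C)
    (z2 : z ^ 2 = 1) (t2 : t ^ 2 = 1) (z1 : z ≠ 1) (t1 : t ≠ 1) (hne : z ≠ t)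
    (cz : ∀ c ∈ C, c * z = z * c) (ct : ∀ c ∈ C, c * t = t * c) (hg : Good C) :
    Nat.card C ≤ 4 := by
  by_contra! h4
  exact ext8T hC (z := ⟨z, hz⟩) (t := ⟨t, ht⟩) (Subtype.ext z2) (Subtype.ext t2)
    (fun e => z1 (congrArg Subtype.val e)) (fun e => t1 (congrArg Subtype.val e))
    (fun e => hne (congrArg Subtype.val e)) (mem_center_iff.2 fun c => Subtype.ext (cz c c.2))
    (mem_center_iff.2 fun c => Subtype.ext (ct c c.2)) h4 (hg.sub ⊤)

theorem card2 {H : Subgroup S} (h : Nat.card H = 2) : ∃ z, z ≠ 1 ∧ z ^ 2 = 1 ∧ H = zpowers z := by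
  have hne : H ≠ ⊥ := fun e => by rw [e, card_bot] at h; omega
  obtain ⟨⟨z, hz⟩, z1⟩ := (ne_bot_iff_exists_ne_one).1 hne
  have z1' : z ≠ 1 := fun e => z1 (Subtype.ext e)
  have z2 : z ^ 2 = 1 := by
    have := pow_card_eq_one' (x := (⟨z, hz⟩ : H))
    rw [h] at this
    exact congrArg Subtype.val this
  exact ⟨z, z1', z2, (eq_of_le_of_card_ge (zpowers_le.2 hz) (by
    rw [h, Nat.card_zpowers, orderOf_eq_prime z2 z1'])).symm⟩

theorem uniq2 (h : ∀ z t : S, z ^ 2 = 1 → t ^ 2 = 1 → z ≠ 1 → t ≠ 1 → z = t) (H K : Subgroup S)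
    (hH : Nat.card H = 2) (hK : Nat.card K = 2) : H = K := by
  obtain ⟨z, z1, z2, rfl⟩ := card2 hH
  obtain ⟨t, t1, t2, rfl⟩ := card2 hK
  rw [h z t z2 t2 z1 t1]

theorem cycIdxT (hS : IsPGroup 2 S) (hg : Good (⊤ : Subgroup S)) :
    ∃ c : S, (zpowers c).index ∣ 2 := by
  by_cases hu : ∀ z t : S, z ^ 2 = 1 → t ^ 2 = 1 → z ≠ 1 → t ≠ 1 → z = t
  · rcases PGrp.isCyclic_or_quaternion hS (uniq2 hu) with h | ⟨-, n, hn, ⟨e⟩⟩
    · obtain ⟨c, hc⟩ := h.exists_generator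
      exact ⟨c, by rw [(eq_top_iff' _).2 hc, index_top]; exact one_dvd _⟩
    · obtain ⟨a, x, n, h⟩ := PGrp.isMC_of_quaternion e hn
      exact ⟨a, h.idx.dvd⟩
  push Not at hu
  obtain ⟨z, t, z2, t2, z1, t1, hne⟩ := hu
  have : Nontrivial S := ⟨z, 1, z1⟩
  obtain ⟨c, hc⟩ : ∃ c : center S, orderOf c = 2 := by
    refine exists_prime_orderOf_dvd_card' 2 ?_
    obtain ⟨n, hn, e⟩ := (hS.to_subgroup (center S)).nontrivial_iff_card.1 hS.center_nontrivial
    rw [e]; exact dvd_pow_self 2 hn.ne'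
  have c2 : (c : S) ^ 2 = 1 := by rw [← hc]; exact congrArg Subtype.val (pow_orderOf_eq_one c)
  have c1 : (c : S) ≠ 1 := fun e => by rw [show c = 1 from Subtype.ext e] at hc; simp at hc
  obtain ⟨u, u2, u1, uc⟩ : ∃ u : S, u ^ 2 = 1 ∧ u ≠ 1 ∧ (c : S) ≠ u := by
    by_cases e : (c : S) = z
    · exact ⟨t, t2, t1, e ▸ hne⟩
    · exact ⟨z, z2, z1, e⟩
  have h4 := ext8 (hS.to_subgroup (centralizer {u})) (z := c) (t := u)
    (mem_centralizer_singleton_iff.2 (mem_center_iff.1 c.2 u).symm)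
    (mem_centralizer_singleton_iff.2 rfl) c2 u2 c1 u1 uc (fun d _ => mem_center_iff.1 c.2 d)
    (fun d hd => mem_centralizer_singleton_iff.1 hd) (hg.mono le_top)
  by_cases hna : IsMulCommutative S
  · refine ⟨u, ?_⟩
    have e : centralizer ({u} : Set S) = ⊤ :=
      (eq_top_iff' _).2 fun g => mem_centralizer_singleton_iff.2 (hna.is_comm.comm g u)
    rw [e, card_top] at h4
    have h5 := (zpowers u).card_mul_index
    rw [Nat.card_zpowers, orderOf_eq_prime u2 u1] at h5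
    have h6 : (zpowers u).index ≠ 0 := index_ne_zero_of_finite
    have : (zpowers u).index = 1 ∨ (zpowers u).index = 2 := by omega
    rcases this with e | e <;> rw [e]
    exact one_dvd _
  · obtain ⟨a, x, n, h⟩ := PGrp.isMC_of_card_centralizer hS hna u h4
    exact ⟨a, h.idx.dvd⟩

/-- four-group, in ambient terms -/
structure V4 (Y : Subgroup S) : Prop where
  card : Nat.card Y = 4
  sq : ∀ y ∈ Y, y ^ 2 = 1

/-- quaternion group, in ambient terms -/
structure Q8 (Y : Subgroup S) (z : S) : Prop where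
  iso : Nonempty (Y ≃* QuaternionGroup 2)
  card : Nat.card Y = 8
  mem : z ∈ Y
  z1 : z ≠ 1
  z2 : z ^ 2 = 1
  uniq : ∀ y ∈ Y, y ^ 2 = 1 → y = 1 ∨ y = z
  cen : ∀ y ∈ Y, y * z = z * y
  sq : ∀ y ∈ Y, y ^ 2 = 1 ∨ y ^ 2 = z
  ex : ∃ y ∈ Y, y ^ 2 ≠ 1
  cen' : ∀ c ∈ Y, (∀ y ∈ Y, y * c = c * y) → c ^ 2 = 1
  cm : ∀ a ∈ Y, ∀ b ∈ Y, ⁅a, b⁆ = 1 ∨ ⁅a, b⁆ = z

theorem q8_of {Y : Subgroup S} (e : Y ≃* QuaternionGroup 2) : ∃ z, Q8 Y z := by
  let Z : QuaternionGroup 2 := .a 2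
  have tr : ∀ {y : S} (hy : y ∈ Y) {q : QuaternionGroup 2}, e ⟨y, hy⟩ = q → y = e.symm q :=
    fun hy q h => by rw [← h, e.symm_apply_apply]
  refine ⟨e.symm Z, ⟨e⟩, ?_, (e.symm Z).2, ?_, ?_, ?_, ?_, ?_, ?_, ?_, ?_⟩
  · rw [Nat.card_congr e.toEquiv, Nat.card_eq_fintype_card, QuaternionGroup.card]
  · intro h
    have : e.symm Z = 1 := Subtype.ext h
    rw [map_eq_one_iff _ e.symm.injective] at this
    exact absurd this (by decide)
  · have : e.symm Z ^ 2 = 1 := by rw [← map_pow, show Z ^ 2 = 1 by decide, map_one]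
    exact congrArg Subtype.val this
  · intro y hy h
    have h1 : e ⟨y, hy⟩ ^ 2 = 1 := by rw [← map_pow, show (⟨y, hy⟩ : Y) ^ 2 = 1 from Subtype.ext h, map_one]
    have : ∀ q : QuaternionGroup 2, q ^ 2 = 1 → q = 1 ∨ q = Z := by decide
    rcases this _ h1 with h2 | h2
    · left; rw [tr hy h2, map_one]; rfl
    · right; exact tr hy h2
  · intro y hy
    have : ∀ q : QuaternionGroup 2, q * Z = Z * q := by decide
    have h1 := congrArg e.symm (this (e ⟨y, hy⟩))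
    rw [map_mul, map_mul, e.symm_apply_apply] at h1
    exact congrArg Subtype.val h1
  · intro y hy
    have : ∀ q : QuaternionGroup 2, q ^ 2 = 1 ∨ q ^ 2 = Z := by decide
    rcases this (e ⟨y, hy⟩) with h | h
    · left
      rw [← map_pow, map_eq_one_iff _ e.injective] at h
      exact congrArg Subtype.val h
    · right
      rw [← map_pow] at h
      exact tr (pow_mem hy 2) h
  · refine ⟨e.symm (.a 1), (e.symm (.a 1)).2, fun h => ?_⟩
    have : e.symm (.a 1) ^ 2 = 1 := Subtype.ext h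
    rw [← map_pow, map_eq_one_iff _ e.symm.injective] at this
    exact absurd this (by decide)
  · intro c hc h
    have : ∀ q : QuaternionGroup 2, (∀ r, r * q = q * r) → q ^ 2 = 1 := by decide
    have h1 := this (e ⟨c, hc⟩) fun r => by
      obtain ⟨r, rfl⟩ := e.surjective r
      rw [← map_mul, ← map_mul]
      exact congrArg e (Subtype.ext (h r r.2))
    rw [← map_pow, map_eq_one_iff _ e.injective] at h1
    exact congrArg Subtype.val h1
  · intro a ha b hb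
    have : ∀ q r : QuaternionGroup 2, ⁅q, r⁆ = 1 ∨ ⁅q, r⁆ = Z := by decide
    rcases this (e ⟨a, ha⟩) (e ⟨b, hb⟩) with h | h
    · left
      rw [← map_commutatorElement, map_eq_one_iff _ e.injective] at h
      exact congrArg Subtype.val h
    · right
      rw [← map_commutatorElement] at h
      exact tr (⁅(⟨a, ha⟩ : Y), (⟨b, hb⟩ : Y)⁆ : Y).2 h

theorem K1 {K : Subgroup S} (hK : IsPGroup 2 K) (hg : Good K) {g : S}
    (hn : g ∈ normalizer (K : Set S)) (ho : Odd (orderOf g)) (hne : ∃ k ∈ K, g * k * g⁻¹ ≠ k) :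
    V4 K ∨ ∃ z, Q8 K z := by
  obtain ⟨c, hc⟩ := cycIdxT hK (hg.sub ⊤)
  obtain ⟨k, hk, hk'⟩ := hne
  rcases Invol.four_or_quat_of_cyclic_index hK hc (Invol.oddEnd_conjEnd K hn ho)
    ⟨⟨k, hk⟩, fun e => hk' (by simpa using congrArg Subtype.val e)⟩ with h | ⟨⟨e⟩⟩
  · refine Or.inl ⟨h.card_four, fun y hy => ?_⟩
    have := IsKleinFour.mul_self (⟨y, hy⟩ : K)
    rw [pow_two]; exact congrArg Subtype.val this
  · exact Or.inr (q8_of e)

theorem V4.comm {Y : Subgroup S} (h : V4 Y) : ∀ a ∈ Y, ∀ b ∈ Y, a * b = b * a := by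
  intro a ha b hb
  have e : ∀ g ∈ Y, g⁻¹ = g := fun g hg => inv_eq_of_mul_eq_one_left (by rw [← pow_two, h.sq g hg])
  rw [← e _ (mul_mem ha hb), mul_inv_rev, e a ha, e b hb]

theorem V4.two {Y : Subgroup S} (h : V4 Y) : ∃ z ∈ Y, ∃ t ∈ Y, z ≠ 1 ∧ t ≠ 1 ∧ z ≠ t := by
  have hne : Y ≠ ⊥ := fun e => by have := h.card; rw [e, card_bot] at this; omega
  obtain ⟨⟨z, hz⟩, z1⟩ := (ne_bot_iff_exists_ne_one).1 hne
  have z1' : z ≠ 1 := fun e => z1 (Subtype.ext e)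
  obtain ⟨t, ht, htz⟩ : ∃ t ∈ Y, t ∉ zpowers z := by
    by_contra! hall
    have := card_le_of_le (show Y ≤ zpowers z from hall)
    rw [h.card, Nat.card_zpowers, orderOf_eq_prime (h.sq z hz) z1'] at this
    omega
  exact ⟨z, hz, t, ht, z1', fun e => htz (e ▸ one_mem _), fun e => htz (e ▸ mem_zpowers _)⟩

theorem idx2 {Y N : Subgroup S} (hY : IsPGroup 2 Y) (hN : N < Y) {n g : S} (hn : n ∈ N)
    (hc : Nat.card Y = 2 * orderOf n) (ho : Odd (orderOf g)) (gY : ∀ y ∈ Y, g * y * g⁻¹ ∈ Y)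
    (gN : ∀ y ∈ N, g * y * g⁻¹ ∈ N) : ∀ y ∈ Y, g * y * g⁻¹ = y := by
  have h1 := Solv.card_mul_relIndex hN.le
  have h2 : N.relIndex Y ≠ 1 := fun e => hN.not_ge (relIndex_eq_one.1 e)
  have h3 : N.relIndex Y ≠ 0 := index_ne_zero_of_finite
  have h4 := card_le_of_le (zpowers_le.2 hn)
  rw [Nat.card_zpowers] at h4
  have h0 : 0 < orderOf n := orderOf_pos n
  have h5 : N.relIndex Y = 2 ∧ Nat.card N = orderOf n := by
    have : N.relIndex Y ≤ 2 := by
      by_contra! hlt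
      nlinarith
    have e : N.relIndex Y = 2 := by omega
    rw [e] at h1
    exact ⟨e, by omega⟩
  have hNe : zpowers n = N := eq_of_le_of_card_ge (zpowers_le.2 hn) (by rw [h5.2, Nat.card_zpowers])
  obtain ⟨k, hk⟩ := hY ⟨n, hN.le hn⟩
  have gn : g * n * g⁻¹ = n := Invol.conj_eq_of_odd_of_mem_zpowers ho (congrArg Subtype.val hk)
    (hNe.symm ▸ gN n hn)
  have gN' : ∀ m ∈ N, g * m * g⁻¹ = m := by
    rw [← hNe]
    rintro _ ⟨i, rfl⟩
    change g * n ^ i * g⁻¹ = n ^ i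
    rw [← conj_zpow, gn]
  intro y hy
  by_cases hyN : y ∈ N
  · exact gN' y hyN
  have hyN' : g * y * g⁻¹ ∉ N := fun h => hyN (by
    have := gN' _ h
    rwa [← mul_left_cancel (mul_right_cancel this)])
  have : (⟨y, hy⟩ : Y)⁻¹ * ⟨_, gY y hy⟩ ∈ N.subgroupOf Y := by
    rw [mul_mem_iff_of_index_two h5.1, inv_mem_iff]; simp [mem_subgroupOf, hyN, hyN']
  have hm : y⁻¹ * (g * y * g⁻¹) ∈ N := this
  obtain ⟨j, hj⟩ := hY ⟨_, hN.le hm⟩
  exact Invol.conj_eq_of_odd_of_mul ho (congrArg Subtype.val hj) (gN' _ hm) (by group)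

theorem V4idx {A : Type*} [Group A] [Finite A] (hA : IsPGroup 2 A) (f : A →* S) {N : Subgroup S}
    [N.Normal] (h4 : Nat.card N = 4) (hc : ∀ a ∈ N, ∀ b ∈ N, a * b = b * a) :
    ∃ A1 : Subgroup A, A1.index ≤ 2 ∧ ∀ a ∈ A1, ∀ n ∈ N, f a * n * (f a)⁻¹ = n := by
  let : CommGroup N := { (inferInstance : Group N) with
    mul_comm := fun a b => Subtype.ext (hc _ a.2 _ b.2) }
  let ρ : A →* MulAut N := (MulAut.conjNormal (H := N)).comp f
  have hc := Rf3.cnt ρ (hA.to_subgroup ⊤) (U := ⊤) fun _ _ _ _ => mem_top _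
  rw [card_top, h4, top_inf_eq] at hc
  have h2 : 2 ≤ Nat.card (Rf3.Fix ρ ⊤) := by
    have : 0 < Nat.card (Rf3.Fix ρ ⊤) := Nat.card_pos
    unfold Nat.ModEq at hc
    omega
  by_cases hF : Rf3.Fix ρ ⊤ = ⊤
  · refine ⟨⊤, by simp, fun a _ n hn => ?_⟩
    exact congrArg Subtype.val ((hF.symm ▸ mem_top _ : (⟨n, hn⟩ : N) ∈ Rf3.Fix ρ ⊤) a (mem_top a))
  obtain ⟨w, hw⟩ : ∃ w, w ∉ Rf3.Fix ρ ⊤ := by
    by_contra! hall
    exact hF ((eq_top_iff' _).2 hall)
  have hne : Rf3.Fix ρ ⊤ ≠ ⊥ := fun e => by rw [e, card_bot] at h2; omega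
  obtain ⟨⟨v, hv⟩, v1⟩ := (ne_bot_iff_exists_ne_one).1 hne
  obtain ⟨G0, hG0, hi⟩ := Rf3.stab ρ w
  refine ⟨G0, ?_, fun a ha n hn => ?_⟩
  · have hsub : (Set.range fun g => ρ g w) ⊆ (Rf3.Fix ρ ⊤ : Set N)ᶜ := by
      rintro _ ⟨g, rfl⟩ h
      apply hw
      have := h g⁻¹ (mem_top _)
      rw [← MulAut.mul_apply, ← map_mul, inv_mul_cancel, map_one, MulAut.one_apply] at this
      rw [this]; exact h
    have h5 := Set.ncard_le_ncard hsub
    have h6 := Set.ncard_add_ncard_compl (Rf3.Fix ρ ⊤ : Set N)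
    have h7 : (Rf3.Fix ρ ⊤ : Set N).ncard = Nat.card (Rf3.Fix ρ ⊤) := rfl
    omega
  · have := Rf3.three (V := ⊤) (K := (ρ a : N →* N).eqLocus (MonoidHom.id N))
      (by rw [card_top, h4]) (mem_top v) (mem_top w) (hv a (mem_top a)) ((hG0 a).1 ha)
      (fun e => v1 (Subtype.ext e)) (fun e => hw (e ▸ one_mem _)) (fun e => hw (e ▸ hv))
    exact congrArg Subtype.val (this (mem_top (⟨n, hn⟩ : N)))

end Cfsg.Agent.Ng8
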