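import Cfsg.Agent.Ng8.A
import Cfsg.Agent.S0119
import Cfsg.Agent.S0095

set_option autoImplicit false
set_option linter.unusedSectionVars false

namespace Cfsg.Agent.Ng8

open Subgroup
open scoped commutatorElement

variable {S : Type*} [Group S] [Finite S]

theorem eq_one_of_odd {K : Subgroup S} (hK : IsPGroup 2 K) {g : S} (hg : g ∈ K)
    (ho : Odd (orderOf g)) : g = 1 := by
  obtain ⟨k, hk⟩ := hK ⟨g, hg⟩
  exact orderOf_eq_one_iff.1 (Nat.eq_one_of_dvd_coprimes
    ((Nat.coprime_two_right.2 ho).pow_right k) dvd_rfl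
    (orderOf_dvd_of_pow_eq_one (congrArg Subtype.val hk)))

theorem two_inv {A : Subgroup S} (hA : IsPGroup 2 A) (hc : IsMulCommutative A)
    (hn : ¬ IsCyclic A) : ∃ z ∈ A, ∃ t ∈ A, z ^ 2 = 1 ∧ t ^ 2 = 1 ∧ z ≠ 1 ∧ t ≠ 1 ∧ z ≠ t := by
  by_contra! hall
  rcases PGrp.isCyclic_or_quaternion hA (uniq2 fun z t z2 t2 z1 t1 => Subtype.ext
    (hall z z.2 t t.2 (congrArg Subtype.val z2) (congrArg Subtype.val t2)
      (fun e => z1 (Subtype.ext e)) fun e => t1 (Subtype.ext e))) with h | ⟨-, n, hn', ⟨e⟩⟩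
  · exact hn h
  · obtain ⟨a, x, n, h⟩ := PGrp.isMC_of_quaternion e hn'
    exact h.not_comm hc

theorem Q8.fix {Y : Subgroup S} {z : S} (h : Q8 Y z) {g : S} (hg : g * z * g⁻¹ ∈ Y) :
    g * z * g⁻¹ = z := by
  refine (h.uniq _ hg (by rw [conj_pow, h.z2]; group)).resolve_left fun e => h.z1 ?_
  rwa [conj_eq_one_iff] at e

theorem normal_part {O A : Subgroup S} [O.Normal] (hO : IsPGroup 2 O)
    (hmax : ∀ K : Subgroup S, K.Normal → IsPGroup 2 K → K ≤ O)
    (hC : centralizer (O : Set S) ≤ O) (hAc : IsMulCommutative A) (hAn : ¬ IsCyclic A)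
    (hA8 : Nat.card A = 8) (h : V4 O ∨ ∃ z, Q8 O z) : False := by
  have hA : IsPGroup 2 A := IsPGroup.of_card (n := 3) hA8
  have cA : ∀ a ∈ A, ∀ b ∈ A, a * b = b * a := fun a ha b hb =>
    congrArg Subtype.val (hAc.is_comm.comm (⟨a, ha⟩ : A) ⟨b, hb⟩)
  have big : ∀ A1 : Subgroup A, A1.index ≤ 2 → (∀ a ∈ A1, (a : S) ∈ O) →
      4 ≤ Nat.card (A ⊓ O : Subgroup S) := by
    intro A1 hi h1
    have h2 : A1.map A.subtype ≤ A ⊓ O := by
      rintro _ ⟨a, ha, rfl⟩; exact ⟨a.2, h1 a ha⟩
    have h3 := card_le_of_le h2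
    rw [card_map_of_injective A.subtype_injective] at h3
    have h4 := A1.card_mul_index
    nlinarith
  rcases h with h | ⟨z, h⟩
  · obtain ⟨A1, hi, h1⟩ := V4idx hA A.subtype h.card h.comm
    have h4 := big A1 hi fun a ha => hC fun n hn => (mul_inv_eq_iff_eq_mul.1 (h1 a ha n hn)).symm
    have e := eq_of_le_of_card_ge (inf_le_right : A ⊓ O ≤ O) (by rw [h.card]; exact h4)
    have hle : A ≤ O := fun a ha => hC fun n hn => cA n (e.symm ▸ hn : n ∈ A ⊓ O).1 a ha
    have := card_le_of_le hle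
    rw [hA8, h.card] at this
    omega
  · have zc : ∀ g, g * z * g⁻¹ = z := fun g => h.fix (Normal.conj_mem inferInstance _ h.mem g)
    have zc' : ∀ c ∈ zpowers z, ∀ g, g * c * g⁻¹ = c := by
      intro c hc g
      rcases mem_zp2 h.z2 hc with rfl | rfl
      · group
      · exact zc g
    have : (zpowers z).Normal := ⟨fun c hc g => by rw [zc' c hc g]; exact hc⟩
    let π := QuotientGroup.mk' (zpowers z)
    have : (O.map π).Normal := Normal.map inferInstance _ (QuotientGroup.mk'_surjective _)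
    have c4 : Nat.card (O.map π) = 4 := by
      have h1 := Solv.card_mul_relIndex (zpowers_le.2 h.mem)
      rw [← relIndex_ker, QuotientGroup.ker_mk']
      rw [Nat.card_zpowers, orderOf_eq_prime h.z2 h.z1, h.card] at h1
      omega
    have cc : ∀ a ∈ O.map π, ∀ b ∈ O.map π, a * b = b * a := by
      rintro _ ⟨a, ha, rfl⟩ _ ⟨b, hb, rfl⟩
      rw [← commutatorElement_eq_one_iff_mul_comm, ← map_commutatorElement]
      refine (QuotientGroup.eq_one_iff _).2 ?_
      rcases h.cm a ha b hb with e | e <;> rw [e]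
      exacts [one_mem _, mem_zpowers _]
    let K := (centralizer ((O.map π : Subgroup _) : Set (S ⧸ zpowers z))).comap π
    have hK : ∀ g, g ∈ K ↔ ∀ o ∈ O, o⁻¹ * (g * o * g⁻¹) ∈ zpowers z := by
      intro g
      constructor
      · intro hg o ho
        have := hg _ (mem_map_of_mem π ho)
        rw [← QuotientGroup.eq_one_iff, ← QuotientGroup.mk'_apply]
        simp only [map_mul, map_inv]
        change (π o)⁻¹ * (π g * π o * (π g)⁻¹) = 1
        rw [← this]; group
      · rintro hg _ ⟨o, ho, rfl⟩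
        have := (QuotientGroup.eq_one_iff _).2 (hg o ho)
        change (π o)⁻¹ * (π g * π o * (π g)⁻¹) = 1 at this
        rw [inv_mul_eq_one, eq_mul_inv_iff_mul_eq] at this
        exact this
    have KO : K ≤ O := by
      refine hmax K inferInstance ((IsPGroup.iff_card).2 ⟨_,
        Nat.eq_prime_pow_of_unique_prime_dvd Nat.card_pos.ne' fun {q} hq hd => ?_⟩)
      by_contra q2
      have := Fact.mk hq
      obtain ⟨g, hg⟩ := exists_prime_orderOf_dvd_card' q hd
      have ho : Odd (orderOf (g : S)) := by rw [orderOf_coe, hg]; exact hq.odd_of_ne_two q2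
      have h1 : (g : S) ∈ O := hC fun o ho' => by
        have hm := (hK g).1 g.2 o ho'
        have h2 : (o⁻¹ * (g * o * (g : S)⁻¹)) ^ 2 ^ 1 = 1 := by
          rcases mem_zp2 h.z2 hm with e | e <;> rw [e]
          exacts [one_pow _, h.z2]
        exact (mul_inv_eq_iff_eq_mul.1
          (Invol.conj_eq_of_odd_of_mul ho h2 (zc' _ hm g) (by group))).symm
      have h2 := eq_one_of_odd hO h1 ho
      rw [← orderOf_coe, h2, orderOf_one] at hg
      exact hq.ne_one hg.symm
    obtain ⟨A1, hi, h1⟩ := V4idx hA (π.comp A.subtype) c4 cc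
    have h4 := big A1 hi fun a ha => KO fun n hn =>
      (mul_inv_eq_iff_eq_mul.1 (h1 a ha n hn)).symm
    obtain ⟨a, ha, a2, aO⟩ : ∃ a ∈ A, a ^ 2 = 1 ∧ a ∉ O := by
      obtain ⟨u, hu, t, ht, u2, t2, u1, t1, hne⟩ := two_inv hA hAc hAn
      by_contra! hall
      exact hne (((h.uniq u (hall u hu u2) u2).resolve_left u1).trans
        ((h.uniq t (hall t ht t2) t2).resolve_left t1).symm)
    have hi2 : (A ⊓ O).relIndex O = 2 := by
      have h5 := Solv.card_mul_relIndex (inf_le_right : A ⊓ O ≤ O)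
      have h6 : (A ⊓ O).relIndex O ≠ 1 := fun e => aO (by
        have := eq_of_le_of_card_ge ((relIndex_eq_one.1 e).trans inf_le_left)
          (by rw [hA8, h.card])
        exact this.symm ▸ ha)
      have h7 : (A ⊓ O).relIndex O ≠ 0 := index_ne_zero_of_finite
      rw [h.card] at h5
      have : (A ⊓ O).relIndex O ≤ 2 := by
        by_contra! hlt
        nlinarith
      omega
    refine aO (KO ((hK a).2 fun o ho => ?_))
    by_cases oA : o ∈ A
    · rw [cA a ha o oA]; simp
    have ho' : a * o * a⁻¹ ∈ O := Normal.conj_mem inferInstance _ ho a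
    have oA' : a * o * a⁻¹ ∉ A := fun e => oA (by
      rwa [mul_mem_cancel_right (inv_mem ha), mul_mem_cancel_left ha] at e)
    have : (⟨o, ho⟩ : O)⁻¹ * ⟨_, ho'⟩ ∈ (A ⊓ O).subgroupOf O := by
      rw [mul_mem_iff_of_index_two hi2, inv_mem_iff]; simp [mem_subgroupOf, oA, oA']
    have hm : o⁻¹ * (a * o * a⁻¹) ∈ A ⊓ O := this
    have e1 := cA a ha _ hm.1
    have e2 : (o⁻¹ * (a * o * a⁻¹)) ^ 2 = 1 := by
      generalize hc : o⁻¹ * (a * o * a⁻¹) = c at e1 ⊢
      have f1 : a * o * a⁻¹ = o * c := by rw [← hc]; group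
      have f2 : a * c * a⁻¹ = c := by rw [e1]; group
      calc c ^ 2 = o⁻¹ * ((o * c) * c) := by rw [pow_two]; group
        _ = o⁻¹ * ((a * o * a⁻¹) * (a * c * a⁻¹)) := by rw [f1, f2]
        _ = o⁻¹ * (a * (o * c) * a⁻¹) := by group
        _ = o⁻¹ * a ^ 2 * o * (a ^ 2)⁻¹ := by rw [← f1, pow_two]; group
        _ = 1 := by rw [a2]; group
    rcases h.uniq _ hm.2 e2 with e | e <;> rw [e]
    exacts [one_mem _, mem_zpowers _]

theorem card_lt' {K L : Subgroup S} (h : K < L) : Nat.card K < Nat.card L :=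
  lt_of_le_of_ne (card_le_of_le h.le) fun e => h.ne (eq_of_le_of_card_ge h.le e.ge)

theorem proper_comm {X Y : Subgroup S} (hX : IsPGroup 2 X) (hYX : Y ≤ X) [Y.Normal] (hne : Y ≠ ⊥) :
    ⁅Y, X⁆ < Y := by
  refine lt_of_le_of_ne (commutator_le_left _ _) fun e => hne ?_
  obtain ⟨N, hN⟩ := (isNilpotent_iff_lowerCentralSeries X).1 hX.isNilpotent
  have : ∀ k, Y ≤ X.lowerCentralSeries k := by
    intro k
    induction k with
    | zero => exact hYX
    | succ k ih => exact e.ge.trans (commutator_mono ih le_rfl)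
  exact le_bot_iff.1 (hN ▸ this N)

theorem struct_part {X H : Subgroup S} [hXn : X.Normal] (hX : IsPGroup 2 X)
    (hodd : Odd (Nat.card H)) (hXH : X ⊔ H = ⊤)
    (hgood : ∀ W : Subgroup S, W ≤ X → W ≠ X → (∀ g ∈ H, ∀ w ∈ W, g * w * g⁻¹ ∈ W) → Good W)
    (hng : ¬ Good X) (hna : ¬ IsMulCommutative X) (hne : ∃ g ∈ H, ∃ k ∈ X, g * k * g⁻¹ ≠ k) :
    (Cfsg.IsExtraspecial 2 ↥X ∧ 32 ≤ Nat.card ↥X) ∨
      (∃ (X₀ : Subgroup S) (k : ℕ), X₀ ≤ X ∧ X₀.relIndex X = 2 ∧
        Nonempty (↥X₀ ≃* QuaternionGroup (2 ^ (k + 1))) ∧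
          X₀ ⊔ (X ⊓ Subgroup.centralizer (X₀ : Set S)) = X) ∨
      (Cfsg.IsSpecial 2 ↥X ∧ Nat.card ↥(Subgroup.center ↥X) = 4) := by
  have ho : ∀ g ∈ H, Odd (orderOf g) := fun g hg => hodd.of_dvd_nat (orderOf_dvd_natCard H hg)
  have hcop : (Nat.card H).Coprime (Nat.card X) := by
    obtain ⟨k, hk⟩ := hX.exists_card_eq
    rw [hk]; exact (Nat.coprime_two_right.2 hodd).pow_right k
  have nI : ∀ W : Subgroup S, W.Normal → ∀ g ∈ H, ∀ w ∈ W, g * w * g⁻¹ ∈ W :=
    fun W hW g _ w hw => hW.conj_mem w hw g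
  have hna' : ¬ ∀ a ∈ X, ∀ b ∈ X, a * b = b * a := fun h =>
    hna ⟨⟨fun a b => Subtype.ext (h _ a.2 _ b.2)⟩⟩
  -- a normal four-group on which `H` acts non-trivially
  have v4n : ∀ B : Subgroup S, B.Normal → B ≤ X → V4 B → (∃ g ∈ H, ∃ k ∈ B, g * k * g⁻¹ ≠ k) →
      (∀ N : Subgroup S, N.Normal → N ≤ B → N = ⊥ ∨ N = B) ∧ (∀ b ∈ B, ∀ x ∈ X, x * b = b * x) ∧
      ∀ W : Subgroup S, B ≤ W → W ≤ X → W ≠ X → (∀ g ∈ H, ∀ w ∈ W, g * w * g⁻¹ ∈ W) → W = B := by
    rintro B hB hBX h4 ⟨g, hg, k, hk, hgk⟩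
    have m : ∀ N : Subgroup S, N.Normal → N ≤ B → N = ⊥ ∨ N = B := by
      intro N hN hle
      by_contra! hcon
      obtain ⟨⟨n, hn⟩, n1⟩ := (ne_bot_iff_exists_ne_one).1 hcon.1
      exact hgk (idx2 (hX.to_le hBX) (lt_of_le_of_ne hle hcon.2) hn
        (by rw [h4.card, orderOf_eq_prime (h4.sq n (hle hn)) fun e => n1 (Subtype.ext e)])
        (ho g hg) (nI B hB g hg) (nI N hN g hg) k hk)
    have hBne : B ≠ ⊥ := fun e => by have := h4.card; rw [e, card_bot] at this; omega
    have c : ∀ b ∈ B, ∀ x ∈ X, x * b = b * x := by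
      have hlt := proper_comm hX hBX hBne
      have := (m _ inferInstance hlt.le).resolve_right hlt.ne
      intro b hb x hx
      have h1 : ⁅b, x⁆ ∈ ⁅B, X⁆ := commutator_mem_commutator hb hx
      rw [this, mem_bot] at h1
      exact (commutatorElement_eq_one_iff_mul_comm.1 h1).symm
    refine ⟨m, c, fun W hBW hWX hne hI => ?_⟩
    obtain ⟨z, hz, t, ht, z1, t1, zt⟩ := h4.two
    have := ext8 (hX.to_le hWX) (hBW hz) (hBW ht) (h4.sq z hz) (h4.sq t ht) z1 t1 zt
      (fun w hw => c z hz w (hWX hw)) (fun w hw => c t ht w (hWX hw)) (hgood W hWX hne hI)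
    exact (eq_of_le_of_card_ge hBW (by rw [h4.card]; exact this)).symm
  have HN : H ≤ normalizer (X : Set S) := le_normalizer_of_normal
  have YX : ⁅X, H⁆ ≤ X := commutator_le_left _ _
  have Yn : (⁅X, H⁆ : Subgroup S).Normal := by
    rw [← normalizer_eq_top_iff, eq_top_iff, ← hXH]
    exact sup_le (normalizer_commutator_ge_left X H) (normalizer_commutator_ge_right X H)
  have YY : ⁅⁅X, H⁆, H⁆ = ⁅X, H⁆ := Solv.commutator_commutator_eq HN hcop
  have dec : ∀ k ∈ X, ∃ y ∈ ⁅X, H⁆, ∃ c ∈ X ⊓ centralizer (H : Set S), y * c = k := fun k hk =>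
    Solv.exists_commutator_mul_centralizer HN hcop (Or.inr (by
      have := hX.isNilpotent; infer_instance)) hk
  by_cases hY : ⁅X, H⁆ = X
  · let ρ : S →* MulAut X := MulAut.conjNormal (H := X)
    have chN : ∀ B : Subgroup X, B.Characteristic → (B.map X.subtype).Normal := fun B _ =>
      ConjAct.normal_of_characteristic_of_normal
    have chP : ∀ B : Subgroup X, B ≠ ⊤ → B.map X.subtype ≠ X := fun B hB e => hB (by
      apply map_injective X.subtype_injective
      rw [e, ← MonoidHom.range_eq_map, range_subtype])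
    have Zt : center X ≠ ⊤ := fun e => hna ⟨⟨fun a b => mem_center_iff.1 (e ▸ mem_top b) a⟩⟩
    by_cases hch : ∀ B : Subgroup X, B.Characteristic → IsMulCommutative B →
        ∀ a ∈ H.map ρ, ∀ h ∈ B, a h = h
    · have hsp := (S0119.result hX (H.map ρ)
        (Nat.coprime_two_right.2 (hodd.of_dvd_nat (card_map_dvd H ρ))) (by
          apply map_injective X.subtype_injective
          rw [← MonoidHom.range_eq_map, range_subtype]
          refine le_antisymm (map_subtype_le _) ?_
          conv_lhs => rw [← hY]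
          refine commutator_le.2 fun x hx h hh => ?_
          refine ⟨((⟨x, hx⟩ : X)⁻¹)⁻¹ * ρ h (⟨x, hx⟩ : X)⁻¹,
            subset_closure ⟨(⟨x, hx⟩ : X)⁻¹, ρ h, mem_map_of_mem ρ hh, rfl⟩, ?_⟩
          change x⁻¹⁻¹ * (h * x⁻¹ * h⁻¹) = _
          rw [commutatorElement_def]; group) hch).1
      have e2 : ∀ z ∈ center X, z ^ 2 = 1 := by
        intro z hz
        rw [← hsp.2.2, _root_.commutator_eq_closure] at hz
        induction hz using closure_induction with
        | mem z hz =>
          obtain ⟨a, b, rfl⟩ := hz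
          have h1 : ⁅a, b⁆ ∈ center X := hsp.2.2 ▸ commutator_mem_commutator (mem_top a) (mem_top b)
          have h2 : a ^ 2 ∈ center X := hsp.2.1 ▸ Solv.pow_mem_frattini hX a
          have h3 := mem_center_iff.1 h1 a
          calc ⁅a, b⁆ ^ 2 = (a * ⁅a, b⁆) * a⁻¹ * ⁅a, b⁆ := by rw [h3, pow_two]; group
            _ = a ^ 2 * b * (a ^ 2)⁻¹ * b⁻¹ := by simp only [commutatorElement_def, pow_two]; group
            _ = 1 := by rw [← mem_center_iff.1 h2 b]; group
        | one => exact one_pow _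
        | mul a b ha hb iha ihb =>
          rw [← _root_.commutator_eq_closure, hsp.2.2] at hb
          rw [(show Commute a b from mem_center_iff.1 hb a).mul_pow, iha, ihb, one_mul]
        | inv a _ ih => rw [inv_pow, ih, inv_one]
      have gZ : Good (center X) := by
        have := (hgood _ (map_subtype_le _) (chP _ Zt) (nI _ (chN _ inferInstance)))
        rintro ⟨A, h1, h2, h3, h4⟩
        refine this ⟨A.map X.subtype, map_mono h1, inferInstance, fun hc => h3 ?_, ?_⟩
        · exact isCyclic_of_surjective _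
            (A.equivMapOfInjective _ X.subtype_injective).symm.surjective
        · rw [card_map_of_injective X.subtype_injective, h4]
      have Zne : center X ≠ ⊥ := by
        rw [← hsp.2.2]; exact fun e => hna (PGrp.commutator_eq_bot_iff.1 e)
      obtain ⟨⟨z, hz⟩, z1⟩ := (ne_bot_iff_exists_ne_one).1 Zne
      have z1' : z ≠ 1 := fun e => z1 (Subtype.ext e)
      by_cases hz' : center X = zpowers z
      · have hex : Cfsg.IsExtraspecial 2 X :=
          ⟨hsp, by rw [hz', Nat.card_zpowers, orderOf_eq_prime (e2 z hz) z1']⟩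
        refine Or.inl ⟨hex, ?_⟩
        obtain ⟨n, hn, hc⟩ := S0095.result hex
        rcases (show n = 1 ∨ 2 ≤ n by omega) with rfl | hn
        · exfalso
          apply hng
          rintro ⟨A, h1, h2, -, h4⟩
          rw [eq_of_le_of_card_ge h1 (by rw [hc, h4]; norm_num)] at h2
          exact hna h2
        · rw [hc]
          exact le_trans (by norm_num) (Nat.pow_le_pow_right two_pos (show 5 ≤ 2 * n + 1 by omega))
      · refine Or.inr (Or.inr ⟨hsp, ?_⟩)
        have hlt : zpowers z < center X := lt_of_le_of_ne (zpowers_le.2 hz) (Ne.symm hz')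
        obtain ⟨t, ht, htz⟩ := SetLike.exists_of_lt hlt
        have h4 := ext8 (hX.to_subgroup (center X)) hz ht (e2 z hz) (e2 t ht) z1'
          (fun e => htz (e ▸ one_mem _)) (fun e => htz (e ▸ mem_zpowers _))
          (fun c _ => mem_center_iff.1 hz c) (fun c _ => mem_center_iff.1 ht c) gZ
        have h5 := card_lt' hlt
        rw [Nat.card_zpowers, orderOf_eq_prime (e2 z hz) z1'] at h5
        obtain ⟨k, hk⟩ := (hX.to_subgroup (center X)).exists_card_eq
        have : Nat.card (center X) ≠ 3 := fun e => by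
          have h6 : 3 ∣ 2 ^ k := by rw [← hk, e]
          have := Nat.prime_three.dvd_of_dvd_pow h6
          omega
        omega
    · push Not at hch
      obtain ⟨B, hBc, hBa, _, ⟨g, hg, rfl⟩, b, hb, hgb⟩ := hch
      have Bt : B ≠ ⊤ := fun e => hna ⟨⟨fun a b => congrArg Subtype.val
        (hBa.is_comm.comm (⟨a, e ▸ mem_top a⟩ : B) ⟨b, e ▸ mem_top b⟩)⟩⟩
      have Bn := chN B hBc
      have hnt : ∃ k ∈ B.map X.subtype, g * k * g⁻¹ ≠ k :=
        ⟨b, mem_map_of_mem _ hb, fun e => hgb (Subtype.ext e)⟩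
      have h4 : V4 (B.map X.subtype) := by
        refine (K1 (hX.to_le (map_subtype_le B)) (hgood _ (map_subtype_le _) (chP _ Bt) (nI _ Bn))
          (le_normalizer_of_normal (mem_top g)) (ho g hg) hnt).resolve_right ?_
        rintro ⟨z, hz⟩
        obtain ⟨y, hy, y2⟩ := hz.ex
        refine y2 (hz.cen' y hy fun w hw => ?_)
        exact congrArg Subtype.val ((inferInstance : IsMulCommutative (B.map X.subtype)).is_comm.comm
          ⟨w, hw⟩ ⟨y, hy⟩)
      obtain ⟨m, c, e⟩ := v4n _ Bn (map_subtype_le B) h4 ⟨g, hg, hnt⟩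
      have e' : ∀ W : Subgroup X, W.Characteristic → B ≤ W → W ≠ ⊤ → W = B := fun W hW h1 h2 =>
        map_injective X.subtype_injective
          (e _ (map_mono h1) (map_subtype_le _) (chP W h2) (nI _ (chN W hW)))
      have eZ : center X = B := e' _ inferInstance (fun b hb => mem_center_iff.2 fun x =>
        Subtype.ext (c _ (mem_map_of_mem _ hb) x x.2)) Zt
      have eF : frattini X ≤ B := by
        rw [← e' (B ⊔ frattini X) inferInstance le_sup_left
          fun h => Bt (frattini_nongenerating h)]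
        exact le_sup_right
      have := hX.isNilpotent
      have cF : _root_.commutator X ≤ frattini X := Solv.commutator_le_frattini
      have eC : _root_.commutator X = B := by
        apply map_injective X.subtype_injective
        refine (m _ (chN _ inferInstance) (map_mono (cF.trans eF))).resolve_left fun h => ?_
        rw [map_eq_bot_iff_of_injective _ X.subtype_injective] at h
        exact hna (PGrp.commutator_eq_bot_iff.1 h)
      refine Or.inr (Or.inr ⟨⟨hX, ?_, eC.trans eZ.symm⟩, ?_⟩)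
      · rw [eZ]; exact le_antisymm eF (eC ▸ cF)
      · rw [eZ, ← card_map_of_injective X.subtype_injective, h4.card]
  · set Y := ⁅X, H⁆ with hYd
    obtain ⟨g, hg, hnt⟩ : ∃ g ∈ H, ∃ k ∈ Y, g * k * g⁻¹ ≠ k := by
      by_contra! hall
      obtain ⟨g, hg, k, hk, hgk⟩ := hne
      have : X ≤ centralizer (H : Set S) :=
        Solv.le_centralizer_of_commutator_le_centralizer HN hcop fun y hy h hh =>
          mul_inv_eq_iff_eq_mul.1 (hall h hh y hy)
      exact hgk (mul_inv_eq_iff_eq_mul.2 (this hk g hg))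
    obtain ⟨c0, hc0, c0Y⟩ : ∃ c ∈ X ⊓ centralizer (H : Set S), c ∉ Y := by
      by_contra! hall
      refine hY (le_antisymm YX fun k hk => ?_)
      obtain ⟨y, hy, c, hc, rfl⟩ := dec k hk
      exact mul_mem hy (hall c hc)
    have invW : ∀ c ∈ X ⊓ centralizer (H : Set S), ∀ g ∈ H, ∀ w ∈ Y ⊔ zpowers c,
        g * w * g⁻¹ ∈ Y ⊔ zpowers c := by
      intro c hc g hg w hw
      have : Y ⊔ zpowers c ≤ (Y ⊔ zpowers c).comap (MulAut.conj g : S →* S) := by
        refine sup_le (fun y hy => mem_sup_left (Yn.conj_mem y hy g)) (zpowers_le.2 ?_)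
        change g * c * g⁻¹ ∈ Y ⊔ zpowers c
        rw [hc.2 g hg, mul_inv_cancel_right]
        exact mem_sup_right (mem_zpowers c)
      exact this hw
    rcases K1 (hX.to_le YX) (hgood _ YX hY (nI _ Yn)) (le_normalizer_of_normal (mem_top g))
      (ho g hg) hnt with h4 | ⟨z, h8⟩
    · exfalso
      obtain ⟨-, c, e⟩ := v4n _ Yn YX h4 ⟨g, hg, hnt⟩
      have := e (Y ⊔ zpowers c0) le_sup_left (sup_le YX (zpowers_le.2 hc0.1)) (fun e => hna' ?_)
        (invW c0 hc0)
      · exact c0Y (this ▸ mem_sup_right (mem_zpowers c0))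
      · have h1 : ∀ a ∈ X, c0 * a = a * c0 := by
          rw [← e]
          have : Y ⊔ zpowers c0 ≤ centralizer {c0} := sup_le
            (fun y hy => mem_centralizer_singleton_iff.2 (c y hy c0 hc0.1).symm)
            (zpowers_le.2 (mem_centralizer_singleton_iff.2 rfl))
          exact fun a ha => (mem_centralizer_singleton_iff.1 (this ha)).symm
        have : Y ⊔ zpowers c0 ≤ centralizer (X : Set S) := sup_le (fun y hy x hx => c y hy x hx)
          (zpowers_le.2 fun x hx => (h1 x hx).symm)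
        exact fun a ha b hb => this (e.symm ▸ hb) a ha
    · have Yne : Y ≠ ⊥ := fun e => h8.z1 (mem_bot.1 (e ▸ h8.mem))
      have hlt := proper_comm hX YX Yne
      have hN : ∀ n ∈ ⁅Y, X⁆, n = 1 ∨ n = z := by
        intro n hn
        refine h8.uniq n (hlt.le hn) ((h8.sq n (hlt.le hn)).resolve_right fun e => ?_)
        obtain ⟨k, hk, hgk⟩ := hnt
        refine hgk (idx2 (hX.to_le YX) hlt hn ?_ (ho g hg) (nI _ Yn g hg)
          (nI _ inferInstance g hg) k hk)
        rw [h8.card, orderOf_eq_prime_pow (p := 2) (n := 1) (by rw [pow_one, e]; exact h8.z1)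
          (by rw [show 2 ^ (1 + 1) = 2 * 2 from rfl, pow_mul, e, h8.z2])]
        norm_num
      have zc : ∀ g, g * z * g⁻¹ = z := fun g => h8.fix (Yn.conj_mem _ h8.mem g)
      have hN' : ∀ n ∈ ⁅Y, X⁆, ∀ g, g * n * g⁻¹ = n := by
        intro n hn g
        rcases hN n hn with rfl | rfl
        · group
        · exact zc g
      have cY : ∀ c ∈ X ⊓ centralizer (H : Set S), ∀ y ∈ Y, y * c = c * y := by
        intro c hc
        have : ⁅Y, H⁆ ≤ centralizer {c} := by
          refine commutator_le.2 fun y hy h hh => mem_centralizer_singleton_iff.2 ?_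
          have h1 := hN' _ (commutator_mem_commutator (inv_mem hy) hc.1)
          have h2 := hc.2 h hh
          have h3 : c * y⁻¹ * c⁻¹ = ⁅y⁻¹, c⁆⁻¹ * y⁻¹ := by simp only [commutatorElement_def]; group
          have h4 : c * y * c⁻¹ = y * ⁅y⁻¹, c⁆ := by simp only [commutatorElement_def]; group
          generalize ⁅y⁻¹, c⁆ = n at h1 h3 h4
          have h5 := h1 h
          calc ⁅y, h⁆ * c = y * (h * n * h⁻¹) * h * n⁻¹ * y⁻¹ * h⁻¹ * c := by
                simp only [commutatorElement_def]; group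
            _ = (y * n) * h * (n⁻¹ * y⁻¹) * h⁻¹ * c := by rw [h5]; group
            _ = c * y * (c⁻¹ * (h * c)) * y⁻¹ * ((h * c)⁻¹ * c) := by rw [← h3, ← h4]; group
            _ = _ := by rw [h2]; simp only [commutatorElement_def]; group
        rw [YY] at this
        exact fun y hy => mem_centralizer_singleton_iff.1 (this hy)
      obtain ⟨c, hc, cY', c2⟩ : ∃ c ∈ X ⊓ centralizer (H : Set S), c ∉ Y ∧ c ^ 2 ∈ Y := by
        obtain ⟨k, hk⟩ := hX ⟨c0, hc0.1⟩
        have hk' : c0 ^ 2 ^ k ∈ Y := by rw [show c0 ^ 2 ^ k = 1 from congrArg Subtype.val hk]; simp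
        clear hk
        induction k with
        | zero => exact absurd (by simpa using hk') c0Y
        | succ k ih =>
          by_cases h : c0 ^ 2 ^ k ∈ Y
          · exact ih h
          · exact ⟨_, pow_mem hc0 _, h, by rwa [← pow_mul, ← pow_succ]⟩
      have hW : Y ⊔ zpowers c = X := by
        by_contra hne'
        have gW := hgood _ (sup_le YX (zpowers_le.2 hc.1)) hne' (invW c hc)
        obtain ⟨y, hy, y2⟩ := h8.ex
        have y2' : y ^ 2 = z := (h8.sq y hy).resolve_left y2
        have c4 : c ^ 2 = 1 ∨ c ^ 2 = z := h8.uniq _ c2 (h8.cen' _ c2 fun w hw =>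
          ((show Commute w c from cY c hc w hw).pow_right 2).eq)
        have yc : Commute y c := cY c hc y hy
        obtain ⟨t, ht, t2, tY, yt⟩ : ∃ t ∈ Y ⊔ zpowers c, t ^ 2 = 1 ∧ t ∉ Y ∧ Commute y t := by
          rcases c4 with e | e
          · exact ⟨c, mem_sup_right (mem_zpowers c), e, cY', yc⟩
          · refine ⟨y * c, mul_mem (mem_sup_left hy) (mem_sup_right (mem_zpowers c)), ?_,
              by rwa [mul_mem_cancel_left hy], (Commute.refl y).mul_right yc⟩
            rw [yc.mul_pow, y2', e, ← pow_two, h8.z2]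
        have hle : zpowers y ⊔ zpowers t ≤ Y ⊔ zpowers c :=
          sup_le (zpowers_le.2 (mem_sup_left hy)) (zpowers_le.2 ht)
        have hct : zpowers y ⊔ zpowers t ≤ centralizer {t} :=
          sup_le (zpowers_le.2 (mem_centralizer_singleton_iff.2 yt))
            (zpowers_le.2 (mem_centralizer_singleton_iff.2 rfl))
        have h4 := ext8 (hX.to_le (hle.trans (sup_le YX (zpowers_le.2 hc.1))))
          (z := z) (t := t) (mem_sup_left (y2' ▸ pow_mem (mem_zpowers y) 2))
          (mem_sup_right (mem_zpowers t)) h8.z2 t2 h8.z1 (fun e => tY (e ▸ one_mem _))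
          (fun e => tY (e ▸ h8.mem)) (fun g _ => mul_inv_eq_iff_eq_mul.1 (zc g))
          (fun g hg => mem_centralizer_singleton_iff.1 (hct hg)) (gW.mono hle)
        have hlt' : zpowers y < zpowers y ⊔ zpowers t := lt_of_le_of_ne le_sup_left fun e =>
          tY (zpowers_le.2 hy (e ▸ mem_sup_right (mem_zpowers t)))
        have h5 := card_lt' hlt'
        rw [Nat.card_zpowers, orderOf_eq_prime_pow (p := 2) (n := 1) (by rwa [pow_one])
          (by rw [show 2 ^ (1 + 1) = 2 * 2 from rfl, pow_mul, y2', h8.z2])] at h5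
        omega
      refine Or.inr (Or.inl ⟨Y, 0, YX, ?_, h8.iso, le_antisymm (sup_le YX inf_le_left) ?_⟩)
      · rw [← hW, relIndex_sup_left, ← QuotientGroup.ker_mk' Y, relIndex_ker, MonoidHom.map_zpowers,
          Nat.card_zpowers]
        exact orderOf_eq_prime (by rw [← map_pow]; exact (QuotientGroup.eq_one_iff _).2 c2)
          fun e => cY' ((QuotientGroup.eq_one_iff _).1 e)
      · conv_lhs => rw [← hW]
        exact sup_le le_sup_left (zpowers_le.2 (mem_sup_right ⟨hc.1, fun y hy => cY c hc y hy⟩))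

end Cfsg.Agent.Ng8
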